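import Cfsg.Agent.Lib.SuzRec.Graph
import Cfsg.Agent.Lib.SuzRec.CertU
import Cfsg.Agent.Lib.HSRec.Rank3
import Cfsg.Agent.Lib.HSRec.Model

/-!
# A strongly regular graph with `G₂(4)` acting as in the Suzuki group is the graph of the Suzuki group

The neighbours of a vertex among the `416` neighbours of the base vertex determine the vertex, and the possible sets are
determined by the group `G₂(4)` up to the choice of a fixed point of a Sylow `2`-subgroup.
-/

set_option autoImplicit false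
set_option maxRecDepth 100000
set_option linter.unusedSectionVars false

namespace Cfsg.Agent.Lib.SuzRec.Core

open MulAction
open Cfsg.Agent.Lib.PermComp.Core Cfsg.Agent.Lib.FusionSimple2.Codes
open Cfsg.Agent.Lib.TC.Enc Cfsg.Agent.Lib.SuzRec.Chain Cfsg.Agent.Lib.SuzRec.Data Cfsg.Agent.Lib.SuzRec.Data2
  Cfsg.Agent.Lib.SuzRec.Det Cfsg.Agent.Lib.SuzRec.ChainData Cfsg.Agent.Lib.SuzRec.Basic
  Cfsg.Agent.Lib.SuzRec.Checks Cfsg.Agent.Lib.SuzRec.Graph
open Cfsg.Agent.Lib.G24J2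
open Cfsg.Agent.Lib.HSRec

local notation "PP" => Equiv.Perm (Fin 416)
local notation "SS" => Equiv.Perm (Fin 1782)
local notation "RR" => Rep 9 511 (Equiv.refl (Fin 416))
local notation "HH" => H 9 511 (Equiv.refl (Fin 416))

/-! ### Invariant sets are unions of classes -/

theorem inv_union {n : ℕ} {t : List (ℕ × ℕ × ℕ)} {rts : List ℕ} {lab : ℕ → ℕ} (k : ℕ) (S : Finset (Fin n))
    (hpar : parOK t (maskL rts) = true)
    (hroot : ∀ r ∈ rts, r < n ∧ nthN rts (lab r) = r)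
    (hent : ∀ e ∈ t, e.2.2 < n → e.1 < n ∧ lab e.1 = lab e.2.2 ∧
      ∀ (h1 : e.1 < n) (h2 : e.2.2 < n), ((⟨e.1, h1⟩ : Fin n) ∈ S ↔ (⟨e.2.2, h2⟩ : Fin n) ∈ S))
    (hcov : ∀ p : Fin n, lab p < k → bit (treeMem t (maskL rts)) p = true)
    (hS : ∀ p ∈ S, lab p < k) :
    ∃ J ⊆ Finset.range k, (∀ p : Fin n, p ∈ S ↔ lab p ∈ J) ∧ ∀ j ∈ J, ∃ q ∈ S, lab q = j := by
  classical
  let Q : ℕ → Prop := fun y => ∃ hy : y < n, (⟨y, hy⟩ : Fin n) ∈ S
  have hQ := classes_gen (n := n) (t := t) (rts := rts) (lab := lab) (Q := Q) hpar hroot (by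
    intro e he hx
    obtain ⟨h1, h2, h3⟩ := hent e he hx
    refine ⟨h1, ?_, h2⟩
    constructor
    · rintro ⟨_, hm⟩
      exact ⟨hx, (h3 h1 hx).1 hm⟩
    · rintro ⟨_, hm⟩
      exact ⟨h1, (h3 h1 hx).2 hm⟩)
  have hQS : ∀ p : Fin n, Q p ↔ p ∈ S := fun p => ⟨fun ⟨_, h⟩ => h, fun h => ⟨p.2, h⟩⟩
  refine ⟨(Finset.range k).filter fun j => ∃ q ∈ S, lab q = j, Finset.filter_subset _ _, fun p => ?_, fun j hj => ?_⟩
  · simp only [Finset.mem_filter, Finset.mem_range]
    constructor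
    · intro hp
      exact ⟨hS p hp, p, hp, rfl⟩
    · rintro ⟨hlt, q, hq, hqp⟩
      have h1 := (hQ p (hcov p hlt)).2
      have h2 := (hQ q (hcov q (by rw [hqp]; exact hlt))).2
      rw [hqp] at h2
      exact (hQS p).1 (h1.2 (h2.1 ((hQS q).2 hq)))
  · simp only [Finset.mem_filter, Finset.mem_range] at hj
    exact hj.2

theorem card_of_iff {n : ℕ} {lab : ℕ → ℕ} {sz : ℕ → ℕ} {k : ℕ}
    (hsz : ∀ j < k, (Finset.univ.filter fun p : Fin n => lab p = j).card = sz j)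
    {J : Finset ℕ} (hJ : J ⊆ Finset.range k) {S : Finset (Fin n)} (h : ∀ p : Fin n, p ∈ S ↔ lab p ∈ J) :
    S.card = ∑ j ∈ J, sz j := by
  classical
  have h1 : S = Finset.univ.filter fun p : Fin n => lab p ∈ J := by
    ext p
    simp [h]
  rw [h1, Finset.card_eq_sum_card_fiberwise (f := fun p : Fin n => lab p) (t := J) (by
    intro x hx
    simpa using hx)]
  apply Finset.sum_congr rfl
  intro j hj
  rw [← hsz j (Finset.mem_range.1 (hJ hj))]
  congr 1
  ext x
  simp only [Finset.mem_filter, Finset.mem_univ, true_and]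
  constructor
  · rintro ⟨-, h⟩
    exact h
  · intro h
    exact ⟨h ▸ hj, h⟩

/-! ### The Sylow subgroup -/

theorem T_U' : Cfsg.Agent.Lib.SuzRec.CertU.cU_T = (List.range 4).map (nthN uC) := by decide +kernel

/-- The Sylow `2`-subgroup. -/
noncomputable abbrev Uu : Subgroup PP := HH Cfsg.Agent.Lib.SuzRec.CertU.cU_T

theorem rep_of_val {c : ℕ} {g : PP} (h : ∀ x : Fin 416, (g x : ℕ) = app 9 511 c x) : RR c g := by
  intro x
  simp only [Equiv.refl_apply]
  exact (h x).symm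

theorem val_of_rep {c : ℕ} {g : PP} (h : RR c g) (x : Fin 416) : (g x : ℕ) = app 9 511 c x := by
  have := h x
  simp only [Equiv.refl_apply] at this
  exact this.symm

theorem eq_of_rep {c : ℕ} {g h : PP} (h1 : RR c g) (h2 : RR c h) : g = h := by
  ext x
  rw [val_of_rep h1, val_of_rep h2]

theorem exists_U_mem (E : Env) {k : ℕ} (hk : k < 4) : ∃ g ∈ E.P, ∃ u, IsLift E g u ∧ g ∈ Uu ∧
    (∀ x : Fin 416, (g x : ℕ) = app 9 511 (nthN uC k) x) ∧ ∀ z : Fin 1782, (u z : ℕ) = app 11 2047 (nthN uS k) z := by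
  obtain ⟨g, hg, u, hu, h1, h2⟩ := exists_U E hk
  refine ⟨g, hg, u, hu, ?_, h1, h2⟩
  apply Subgroup.subset_closure
  refine ⟨nthN uC k, ?_, rep_of_val h1⟩
  rw [T_U', List.mem_map]
  exact ⟨k, List.mem_range.2 hk, rfl⟩

theorem Uu_le (E : Env) : Uu ≤ E.P := by
  apply (Subgroup.closure_le _).2
  rintro g ⟨c, hc, hg⟩
  rw [T_U', List.mem_map] at hc
  obtain ⟨k, hk, rfl⟩ := hc
  obtain ⟨g', hg', -, -, -, h1, -⟩ := exists_U_mem E (List.mem_range.1 hk)
  rw [eq_of_rep hg (rep_of_val h1)]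
  exact hg'

theorem card_Uu (E : Env) : Nat.card Uu = 4096 := by
  have hT : ∀ c ∈ Cfsg.Agent.Lib.SuzRec.CertU.cU_T, ∃ g, RR c g := by
    intro c hc
    rw [T_U', List.mem_map] at hc
    obtain ⟨k, hk, rfl⟩ := hc
    obtain ⟨g', -, -, -, -, h1, -⟩ := exists_U_mem E (List.mem_range.1 hk)
    exact ⟨g', rep_of_val h1⟩
  have h := main_of_checkAll (e := Equiv.refl (Fin 416)) hT Cfsg.Agent.Lib.SuzRec.CertU.cU_ok
  rw [h.2.2.2.2.2]
  exact Cfsg.Agent.Lib.SuzRec.CertU.cU_order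

/-! ### Facts on the labels -/

theorem labV_lt_iff (z : Fin 1782) : labV z < 6 ↔ lab3 z = 2 := by
  have h := bEq_iff (allN_spec labV_iff z z.2)
  constructor
  · intro hlt
    have h1 : Nat.blt (labV z) 6 = true := Nat.ble_eq_true_of_le hlt
    rw [h] at h1
    exact Nat.eq_of_beq_eq_true h1
  · intro hl
    have h1 : Nat.beq (lab3 z) 2 = true := by
      rw [hl]
      rfl
    rw [← h] at h1
    exact Nat.le_of_ble_eq_true h1

theorem labV_zero' {z : Fin 1782} (h : labV z = 0) : z = z2 := by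
  have h1 := allN_spec labV_zero z z.2
  rw [orC_eq_true] at h1
  rcases h1 with h1 | h1
  · exact absurd h (neB_ne h1)
  · exact Fin.ext (Nat.eq_of_beq_eq_true h1)

theorem lab3_zero' {z : Fin 1782} (h : lab3 z = 0) : z = z0 := by
  have h1 := allN_spec Checks.lab3_zero z z.2
  rw [orC_eq_true] at h1
  rcases h1 with h1 | h1
  · exact absurd h (neB_ne h1)
  · exact Fin.ext (Nat.eq_of_beq_eq_true h1)

theorem labU_lt' (p : Fin 416) : labU p < 5 := Nat.le_of_ble_eq_true (allN_spec labU_lt p p.2)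

/-- The three classes of sizes of the graph on `416` vertices. -/
theorem num1 : ∀ J ∈ (Finset.range 3).powerset, 0 ∉ J →
    (∑ j ∈ J, [1, 315, 100].getD j 0 = 0) ∨ (∑ j ∈ J, [1, 315, 100].getD j 0 = 315) ∨
    (J = {2} ∧ ∑ j ∈ J, [1, 315, 100].getD j 0 = 100) ∨ (∑ j ∈ J, [1, 315, 100].getD j 0 = 415) := by
  decide +kernel

/-! ### The context -/

theorem exists_gp (E : Env) (p : Fin 416) : ∃ g : E.P, g.1 p0 = p := by
  obtain ⟨g, hg, h⟩ := exists_trans E.hP p
  exact ⟨⟨g, hg⟩, h⟩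

/-- An element moving the base point to a point. -/
noncomputable def gp (E : Env) (p : Fin 416) : E.P := (exists_gp E p).choose

theorem gp_spec (E : Env) (p : Fin 416) : (gp E p).1 p0 = p := (exists_gp E p).choose_spec

/-- The hypotheses on the strongly regular graph. -/
structure Ctx (E : Env) {Ω : Type*} [Fintype Ω] (Γ : SimpleGraph Ω) [DecidableRel Γ.Adj]
    (κ : E.P →* Equiv.Perm Ω) (a b c : Ω) (l m : ℕ) : Prop where
  hadj : ∀ (g : E.P) (x y : Ω), Γ.Adj (κ g x) (κ g y) ↔ Γ.Adj x y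
  hsrg : Γ.IsSRGWith 1782 416 l m
  ha : ∀ g : E.P, κ g a = a
  hab : Γ.Adj a b
  hNa : ∀ x, Γ.Adj a x → ∃ g : E.P, κ g b = x
  hD : ∀ x, x ≠ a → ¬Γ.Adj a x → ∃ g : E.P, κ g c = x
  hca : c ≠ a
  hnac : ¬Γ.Adj a c
  hb : ∀ g : E.P, κ g b = b ↔ g.1 p0 = p0

/-- The neighbours of the base vertex. -/
noncomputable def τ {E : Env} {Ω : Type*} (κ : E.P →* Equiv.Perm Ω) (b : Ω) (p : Fin 416) : Ω := κ (gp E p) b

/-- The neighbours of a vertex among the neighbours of the base vertex. -/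
noncomputable def sg {E : Env} {Ω : Type*} (Γ : SimpleGraph Ω) [DecidableRel Γ.Adj] (κ : E.P →* Equiv.Perm Ω) (b x : Ω) :
    Finset (Fin 416) := Finset.univ.filter fun p => Γ.Adj (τ κ b p) x

section Ctx

variable {E : Env} {Ω : Type*} [Fintype Ω] [DecidableEq Ω] {Γ : SimpleGraph Ω} [DecidableRel Γ.Adj]
  {κ : E.P →* Equiv.Perm Ω} {a b c : Ω} {l m : ℕ}

theorem mem_sg {x : Ω} {p : Fin 416} : p ∈ sg Γ κ b x ↔ Γ.Adj (τ κ b p) x := by simp [sg]

variable (C : Ctx E Γ κ a b c l m)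
include C

theorem τ_of (g : E.P) : κ g b = τ κ b (g.1 p0) := by
  have h : (((gp E (g.1 p0))⁻¹ * g : E.P)).1 p0 = p0 := by
    show ((gp E (g.1 p0)).1⁻¹ * g.1) p0 = p0
    rw [Equiv.Perm.mul_apply, Equiv.Perm.inv_eq_iff_eq, gp_spec]
  have h2 := (C.hb _).2 h
  rw [map_mul, map_inv, Equiv.Perm.mul_apply, Equiv.Perm.inv_eq_iff_eq] at h2
  exact h2

theorem τ_p0 : τ κ b p0 = b := by
  have := τ_of C (1 : E.P)
  rw [map_one] at this
  exact this.symm

theorem τ_smul (g : E.P) (p : Fin 416) : κ g (τ κ b p) = τ κ b (g.1 p) := by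
  have h := τ_of C (g * gp E p)
  rw [map_mul, Equiv.Perm.mul_apply] at h
  have h2 : ((g * gp E p : E.P)).1 p0 = g.1 p := by
    show g.1 ((gp E p).1 p0) = g.1 p
    rw [gp_spec]
  rw [h2] at h
  exact h

theorem τ_inj : Function.Injective (τ κ b) := by
  intro p q h
  have h1 : κ ((gp E q)⁻¹ * gp E p) b = b := by
    rw [map_mul, map_inv, Equiv.Perm.mul_apply, Equiv.Perm.inv_eq_iff_eq]
    exact h
  have h2 := (C.hb _).1 h1
  have h3 : (gp E q).1⁻¹ ((gp E p).1 p0) = p0 := h2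
  rw [Equiv.Perm.inv_eq_iff_eq, gp_spec, gp_spec] at h3
  exact h3

theorem adj_τ (p : Fin 416) : Γ.Adj a (τ κ b p) := by
  have h := (C.hadj (gp E p) a b).2 C.hab
  rwa [C.ha] at h

theorem exists_τ {x : Ω} (h : Γ.Adj a x) : ∃ p, τ κ b p = x := by
  obtain ⟨g, rfl⟩ := C.hNa x h
  exact ⟨g.1 p0, (τ_of C g).symm⟩

theorem mem_sg_smul (g : E.P) (x : Ω) (p : Fin 416) : g.1 p ∈ sg Γ κ b (κ g x) ↔ p ∈ sg Γ κ b x := by
  rw [mem_sg, mem_sg, ← τ_smul C, C.hadj]

theorem card_sg (x : Ω) : (sg Γ κ b x).card = Nat.card (Γ.commonNeighbors a x) := by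
  have hm : ∀ p : sg Γ κ b x, τ κ b p.1 ∈ Γ.commonNeighbors a x := fun p =>
    (SimpleGraph.mem_commonNeighbors Γ).2 ⟨adj_τ C p.1, (mem_sg.1 p.2).symm⟩
  rw [← Fintype.card_coe, ← Nat.card_eq_fintype_card]
  refine Nat.card_congr (Equiv.ofBijective (fun p => ⟨τ κ b p.1, hm p⟩) ⟨?_, ?_⟩)
  · intro p q h
    exact Subtype.ext (τ_inj C (congrArg Subtype.val h))
  · rintro ⟨y, hy⟩
    obtain ⟨h1, h2⟩ := (SimpleGraph.mem_commonNeighbors Γ).1 hy
    obtain ⟨p, rfl⟩ := exists_τ C h1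
    exact ⟨⟨p, mem_sg.2 h2.symm⟩, rfl⟩

theorem card_sg_near : (sg Γ κ b b).card = l := by
  have h := C.hsrg.of_adj a b C.hab
  rw [← Nat.card_eq_fintype_card] at h
  rw [card_sg C, h]

theorem card_sg_far {x : Ω} (h1 : x ≠ a) (h2 : ¬Γ.Adj a x) : (sg Γ κ b x).card = m := by
  have h := C.hsrg.of_not_adj h1.symm h2
  rw [← Nat.card_eq_fintype_card] at h
  rw [card_sg C, h]

theorem sg_a : sg Γ κ b a = sgS E z0 := by
  rw [sgS_zero E]
  ext p
  simp only [Finset.mem_univ, iff_true]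
  exact mem_sg.2 (adj_τ C p).symm

theorem sg_smul_eq {g : E.P} {u : SS} (hl : IsLift E g.1 u) {x : Ω} {z : Fin 1782} (h : sg Γ κ b x = sgS E z) :
    sg Γ κ b (κ g x) = sgS E (u z) := by
  ext p
  obtain ⟨q, rfl⟩ := g.1.surjective p
  rw [mem_sg_smul C, mem_sgS_lift hl, h]

/-! ### The number of common neighbours of adjacent vertices -/

/-- **The neighbours of a neighbour of the base vertex.** -/
theorem stage1 : l = 100 ∧ m = 96 ∧ sg Γ κ b b = sgS E z1 := by
  classical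
  have hinv : ∀ {s : PP}, s ∈ Q0 E.P → ∀ p : Fin 416, s p ∈ sg Γ κ b b ↔ p ∈ sg Γ κ b b := by
    intro s hs p
    have h1 : κ ⟨s, hs.1⟩ b = b := (C.hb _).2 hs.2
    have := mem_sg_smul C (⟨s, hs.1⟩ : E.P) b p
    rwa [h1] at this
  let J : Finset ℕ := (Finset.range 3).filter fun j => ∃ p ∈ sg Γ κ b b, lab0 p = j
  have hJsub : J ⊆ Finset.range 3 := Finset.filter_subset _ _
  have hmem : ∀ p : Fin 416, p ∈ sg Γ κ b b ↔ lab0 p ∈ J := by
    intro p
    constructor
    · intro hp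
      simp only [J, Finset.mem_filter, Finset.mem_range]
      exact ⟨lab0_lt p, p, hp, rfl⟩
    · intro hp
      simp only [J, Finset.mem_filter, Finset.mem_range] at hp
      obtain ⟨h1, q, hq, hqp⟩ := hp
      obtain ⟨s, hs, hsq⟩ := htr0 E.hP q p (by rw [hqp]; exact h1) hqp
      rw [← hsq]
      exact (hinv hs q).2 hq
  have h0J : 0 ∉ J := by
    intro h0
    simp only [J, Finset.mem_filter, Finset.mem_range] at h0
    obtain ⟨-, q, hq, hq0⟩ := h0
    have hq' := (lab0_zero q).1 hq0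
    rw [hq', mem_sg, τ_p0 C] at hq
    exact Γ.irrefl hq
  have hcard := card_of_iff sz0 hJsub hmem
  rw [card_sg_near C] at hcard
  have hpe := SimpleGraph.IsSRGWith.param_eq Γ C.hsrg (by norm_num)
  rcases num1 J (Finset.mem_powerset.2 hJsub) h0J with h | h | ⟨h1, h⟩ | h
  · rw [h] at hcard
    subst hcard
    omega
  · rw [h] at hcard
    subst hcard
    omega
  · rw [h] at hcard
    subst hcard
    have hm : m = 96 := by omega
    refine ⟨rfl, hm, ?_⟩
    ext p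
    rw [hmem, h1, mem_sgS, Finset.mem_singleton, adjT_symm, adjT_z1]
    have h2 : adjS 995 (fp p) = Nat.beq (lab0 p) 2 := bEq_iff (allN_spec sg1 p p.2)
    show _ ↔ adjS 995 (fp p) = true
    rw [h2]
    constructor
    · intro h3
      rw [h3]
      rfl
    · exact Nat.eq_of_beq_eq_true
  · exfalso
    rw [h] at hcard
    subst hcard
    have h2 : Γ.IsSRGWith 1782 416 (416 - 1) m := C.hsrg
    have h3 := Rank3.dvd_of_srg h2 (by norm_num)
    norm_num at h3

/-! ### The vertices far from the base vertex -/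

theorem far_smul (g : E.P) {x : Ω} : (κ g x ≠ a ∧ ¬Γ.Adj a (κ g x)) ↔ (x ≠ a ∧ ¬Γ.Adj a x) := by
  have h1 : κ g x = a ↔ x = a := by
    constructor
    · intro h
      apply (κ g).injective
      rw [h, C.ha]
    · rintro rfl
      exact C.ha g
  have h2 : Γ.Adj a (κ g x) ↔ Γ.Adj a x := by
    have := C.hadj g a x
    rwa [C.ha] at this
  rw [Ne, h1, h2]

theorem far_trans {x y : Ω} (hx : x ≠ a) (hx' : ¬Γ.Adj a x) (hy : y ≠ a) (hy' : ¬Γ.Adj a y) :
    ∃ g : E.P, κ g x = y := by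
  obtain ⟨g, rfl⟩ := C.hD x hx hx'
  obtain ⟨h, rfl⟩ := C.hD y hy hy'
  refine ⟨h * g⁻¹, ?_⟩
  rw [map_mul, map_inv, Equiv.Perm.mul_apply]
  simp

theorem card_DF : (Finset.univ.filter fun y : Ω => y ≠ a ∧ ¬Γ.Adj a y).card = 1365 := by
  have h1 : (Finset.univ.filter fun y : Ω => y ≠ a ∧ ¬Γ.Adj a y) = Finset.univ \ insert a (Γ.neighborFinset a) := by
    ext y
    simp only [Finset.mem_filter, Finset.mem_univ, true_and, Finset.mem_sdiff, Finset.mem_insert,
      SimpleGraph.mem_neighborFinset, not_or]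
  rw [h1, Finset.card_sdiff_of_subset (Finset.subset_univ _), Finset.card_insert_of_notMem (by simp),
    Finset.card_univ, C.hsrg.card]
  have := C.hsrg.regular a
  rw [SimpleGraph.degree] at this
  rw [this]

/-- The order of the stabilizer of a far vertex. -/
theorem card_Y0 {x : Ω} (hx : x ≠ a) (hx' : ¬Γ.Adj a x) :
    Nat.card ((stabilizer (Equiv.Perm Ω) x).comap κ) = 184320 := by
  classical
  letI : MulAction E.P Ω := MulAction.compHom Ω κ
  have hstab : stabilizer E.P x = (stabilizer (Equiv.Perm Ω) x).comap κ := by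
    ext g
    rfl
  rw [← hstab]
  have h1 := (stabilizer E.P x).card_mul_index
  rw [index_stabilizer, E.hP.card] at h1
  have horb : orbit E.P x = ((Finset.univ.filter fun y : Ω => y ≠ a ∧ ¬Γ.Adj a y : Finset Ω) : Set Ω) := by
    ext y
    simp only [Finset.coe_filter, Finset.mem_univ, true_and, Set.mem_ofPred_eq]
    constructor
    · rintro ⟨g, rfl⟩
      exact (far_smul C g).2 ⟨hx, hx'⟩
    · rintro ⟨h2, h3⟩
      obtain ⟨g, hg⟩ := far_trans C hx hx' h2 h3
      exact ⟨g, hg⟩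
  rw [horb, Set.ncard_coe_finset, card_DF C] at h1
  omega

/-- The bad sets do not occur. -/
theorem no_bad {x : Ω} (hx : x ≠ a) (hx' : ¬Γ.Adj a x) {k : ℕ} (hk : k < 3)
    (h : ∀ p : Fin 416, p ∈ sg Γ κ b x ↔ (labU p = k ∨ labU p = 3)) : False := by
  classical
  let Y₀ : Subgroup E.P := (stabilizer (Equiv.Perm Ω) x).comap κ
  have hc0 : Nat.card Y₀ = 184320 := card_Y0 C hx hx'
  let Y : Subgroup PP := Y₀.map E.P.subtype
  have hY : Nat.card Y = 184320 := by
    rw [← hc0]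
    exact (Nat.card_congr (Subgroup.equivMapOfInjective _ _ E.P.subtype_injective).toEquiv).symm
  have hle : Y ≤ AutA 416 rowB := by
    rintro _ ⟨g, -, rfl⟩
    exact P_le E g.2
  have := excl hk Y hle (by
    rintro _ ⟨g, hg, rfl⟩ p
    have hfix : κ g x = x := hg
    have h1 := mem_sg_smul C g x p
    rw [hfix] at h1
    exact (h _).symm.trans (h1.trans (h p)))
  omega

/-- **A vertex fixed by the Sylow subgroup.** -/
theorem stage2 (hm : m = 96) : ∃ c' : Ω, c' ≠ a ∧ ¬Γ.Adj a c' ∧ (∀ g : E.P, g.1 ∈ Uu → κ g c' = c') ∧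
    sg Γ κ b c' = sgS E z2 := by
  classical
  let Δ := {x : Ω // x ≠ a ∧ ¬Γ.Adj a x}
  let U' : Subgroup E.P := Uu.subgroupOf E.P
  letI act : MulAction U' Δ :=
    { smul := fun g x => ⟨κ g.1 x.1, (far_smul C g.1).2 x.2⟩
      one_smul := fun x => by
        apply Subtype.ext
        show κ ((1 : U') : E.P) x.1 = x.1
        simp
      mul_smul := fun g h x => by
        apply Subtype.ext
        show κ ((g * h : U') : E.P) x.1 = κ g.1 (κ h.1 x.1)
        simp }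
  have hcU : Nat.card U' = 2 ^ 12 := by
    have : Nat.card U' = Nat.card Uu := Nat.card_congr (Subgroup.subgroupOfEquivOfLe (Uu_le E)).toEquiv
    rw [this, card_Uu E]
    norm_num
  have hp2 : IsPGroup 2 U' := IsPGroup.of_card hcU
  haveI : Fact (Nat.Prime 2) := ⟨Nat.prime_two⟩
  have hcΔ : Nat.card Δ = 1365 := by
    rw [Nat.card_eq_fintype_card, Fintype.card_subtype, card_DF C]
  obtain ⟨⟨c', hc1, hc2⟩, hfix⟩ := hp2.nonempty_fixed_point_of_prime_not_dvd_card Δ (by rw [hcΔ]; norm_num)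
  have hfix' : ∀ g : E.P, g.1 ∈ Uu → κ g c' = c' := by
    intro g hg
    have := hfix (⟨g, hg⟩ : U')
    exact congrArg Subtype.val this
  refine ⟨c', hc1, hc2, hfix', ?_⟩
  have hSc : (sg Γ κ b c').card = 96 := by rw [card_sg_far C hc1 hc2, hm]
  have hcov : allN (bit (treeMem treeU (maskL rootsU))) 416 = true := by
    have := treeU_cov
    rwa [force_eq] at this
  obtain ⟨J, hJsub, hiff, -⟩ := inv_union (n := 416) (t := treeU) (rts := rootsU) (lab := labU) 5 (sg Γ κ b c') treeU_par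
    (fun r hr => by
      obtain ⟨h1, h2⟩ := (ifB_eq_true _ _).1 ((allL_eq_true _ _).1 treeU_root r hr)
      exact ⟨Nat.le_of_ble_eq_true h1, Nat.eq_of_beq_eq_true h2⟩)
    (by
      rintro ⟨y, k, x⟩ he hx
      simp only at hx ⊢
      obtain ⟨h1, h2⟩ := (ifB_eq_true _ _).1 ((allL_eq_true _ _).1 treeU_ent _ he)
      obtain ⟨h3, h4⟩ := (ifB_eq_true _ _).1 h2
      have hk : k < 4 := Nat.le_of_ble_eq_true h1
      have hyx : y = app 9 511 (nthN uC k) x := Nat.eq_of_beq_eq_true h3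
      have hl : labU y = labU x := Nat.eq_of_beq_eq_true h4
      obtain ⟨g, hg, -, -, hgU, hv, -⟩ := exists_U_mem E hk
      have hval : (g ⟨x, hx⟩ : ℕ) = y := by rw [hv, hyx]
      refine ⟨by rw [← hval]; exact (g ⟨x, hx⟩).2, hl, fun h1' h2' => ?_⟩
      have he' : (⟨y, h1'⟩ : Fin 416) = g ⟨x, hx⟩ := Fin.ext hval.symm
      rw [he']
      have h5 := mem_sg_smul C (⟨g, hg⟩ : E.P) c' ⟨x, hx⟩
      rwa [hfix' _ hgU] at h5)
    (fun p _ => allN_spec hcov p p.2) (fun p _ => labU_lt' p)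
  have hcard := card_of_iff szU hJsub hiff
  rw [hSc] at hcard
  have hnum := numU J (Finset.mem_powerset.2 hJsub) hcard.symm
  have hval : ∀ p : Fin 416, (AdjT E (fF p) z2) ↔ Nat.blt (labU p) 3 = true := fun p => by
    rw [adjT_symm, adjT_z2]
    have h1 : adjS 2 (fp p) = Nat.blt (labU p) 3 := bEq_iff (allN_spec sg2 p p.2)
    rw [← h1]
    rfl
  rcases hnum with rfl | rfl | rfl | rfl
  · ext p
    rw [hiff, mem_sgS, hval]
    simp only [Finset.mem_insert, Finset.mem_singleton]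
    constructor
    · rintro (h | h | h) <;> rw [h] <;> rfl
    · intro h
      have h3 : labU p < 3 := Nat.le_of_ble_eq_true h
      omega
  · exact (no_bad C hc1 hc2 (k := 0) (by norm_num) fun p => by
      rw [hiff]
      simp).elim
  · exact (no_bad C hc1 hc2 (k := 1) (by norm_num) fun p => by
      rw [hiff]
      simp).elim
  · exact (no_bad C hc1 hc2 (k := 2) (by norm_num) fun p => by
      rw [hiff]
      simp).elim

/-! ### The identification of the vertices -/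

theorem exists_phi {c' : Ω} (hc1 : c' ≠ a) (hc2 : ¬Γ.Adj a c') (hb1 : sg Γ κ b b = sgS E z1)
    (hc3 : sg Γ κ b c' = sgS E z2) : ∃ φ : Ω ≃ Fin 1782, ∀ x, sg Γ κ b x = sgS E (φ x) := by
  classical
  have hex : ∀ x, ∃ z, sg Γ κ b x = sgS E z := by
    intro x
    by_cases hxa : x = a
    · rw [hxa]
      exact ⟨z0, sg_a C⟩
    by_cases hx : Γ.Adj a x
    · obtain ⟨g, rfl⟩ := C.hNa x hx
      obtain ⟨u, hu⟩ := exists_lift E g.2
      exact ⟨u z1, sg_smul_eq C hu hb1⟩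
    · obtain ⟨g, rfl⟩ := far_trans C hc1 hc2 hxa hx
      obtain ⟨u, hu⟩ := exists_lift E g.2
      exact ⟨u z2, sg_smul_eq C hu hc3⟩
  choose φ₀ hφ₀ using hex
  have h0 : φ₀ a = z0 := sgS_inj E (by rw [← hφ₀, sg_a C])
  have h1 : φ₀ b = z1 := sgS_inj E (by rw [← hφ₀, hb1])
  have h2 : φ₀ c' = z2 := sgS_inj E (by rw [← hφ₀, hc3])
  have hsurj : Function.Surjective φ₀ := by
    intro z
    obtain ⟨g, hg, u, hu, he⟩ := reach E z
    have hr : ∃ r, φ₀ r = rt (lab3 z) := by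
      have hlt := lab3_lt z
      have hc : lab3 z = 0 ∨ lab3 z = 1 ∨ lab3 z = 2 := by omega
      rcases hc with h | h | h
      · rw [h]
        exact ⟨a, h0⟩
      · rw [h]
        exact ⟨b, h1⟩
      · rw [h]
        exact ⟨c', h2⟩
    obtain ⟨r, hr⟩ := hr
    refine ⟨κ ⟨g, hg⟩ r, ?_⟩
    apply sgS_inj E
    rw [← hφ₀, sg_smul_eq C (g := ⟨g, hg⟩) hu (hφ₀ r), hr, he]
  have hbij := (Fintype.bijective_iff_surjective_and_card φ₀).2 ⟨hsurj, by rw [C.hsrg.card, Fintype.card_fin]⟩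
  exact ⟨Equiv.ofBijective φ₀ hbij, hφ₀⟩

section Phi

variable {φ : Ω ≃ Fin 1782} (hφ : ∀ x, sg Γ κ b x = sgS E (φ x))
include hφ

theorem phi_a : φ a = z0 := sgS_inj E (by rw [← hφ, sg_a C])

theorem phi_smul {g : E.P} {u : SS} (hl : IsLift E g.1 u) (x : Ω) : φ (κ g x) = u (φ x) :=
  sgS_inj E (by rw [← hφ, sg_smul_eq C hl (hφ x)])

variable (hb1 : sg Γ κ b b = sgS E z1)
include hb1

theorem phi_b : φ b = z1 := sgS_inj E (by rw [← hφ, hb1])

theorem phi_tau (p : Fin 416) : φ (τ κ b p) = fF p := by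
  obtain ⟨u, hu⟩ := exists_lift E (gp E p).2
  show φ (κ (gp E p) b) = _
  rw [phi_smul C hφ hu, phi_b C hφ hb1, ← fF_p0, hu.2, gp_spec]

theorem far_zero {w : Ω} (hw : ¬Γ.Adj a w) : ¬AdjT E z0 (φ w) := by
  intro h
  rw [adjT_zero] at h
  obtain ⟨p, hp⟩ := exists_fF h
  rw [← phi_tau C hφ hb1] at hp
  rw [← φ.injective hp] at hw
  exact hw (adj_τ C p)

theorem lab3_far {w : Ω} (h1 : w ≠ a) (h2 : ¬Γ.Adj a w) : lab3 (φ w) = 2 := by
  have hlt := lab3_lt (φ w)
  have hc : lab3 (φ w) = 0 ∨ lab3 (φ w) = 1 ∨ lab3 (φ w) = 2 := by omega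
  rcases hc with h | h | h
  · exfalso
    have h3 := lab3_zero' h
    rw [← phi_a C hφ] at h3
    exact h1 (φ.injective h3)
  · exfalso
    obtain ⟨p, hp⟩ := exists_fF h
    rw [← phi_tau C hφ hb1] at hp
    rw [← φ.injective hp] at h2
    exact h2 (adj_τ C p)
  · exact h

theorem far_of_lab3 {z : Fin 1782} (h : lab3 z = 2) : φ.symm z ≠ a ∧ ¬Γ.Adj a (φ.symm z) := by
  constructor
  · intro h1
    have h2 : z = z0 := by
      rw [← phi_a C hφ, ← h1]
      simp
    rw [h2, show ((z0 : Fin 1782) : ℕ) = 0 from rfl, lab3_vals.1] at h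
    exact absurd h (by norm_num)
  · intro h1
    obtain ⟨p, hp⟩ := exists_τ C h1
    have h2 : z = fF p := by
      rw [← phi_tau C hφ hb1, hp]
      simp
    rw [h2, lab3_fF] at h
    exact absurd h (by norm_num)

/-- **The neighbours of the fixed vertex.** -/
theorem key_cp {c' : Ω} (hc1 : c' ≠ a) (hc2 : ¬Γ.Adj a c') (hc3 : sg Γ κ b c' = sgS E z2)
    (hfix : ∀ g : E.P, g.1 ∈ Uu → κ g c' = c') (hm : m = 96) {y : Ω} (hy1 : y ≠ a) (hy2 : ¬Γ.Adj a y) :
    Γ.Adj c' y ↔ AdjT E z2 (φ y) := by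
  classical
  let S2 : Finset (Fin 1782) := Finset.univ.filter fun z : Fin 1782 => lab3 z = 2 ∧ Γ.Adj c' (φ.symm z)
  have hmemS2 : ∀ z, z ∈ S2 ↔ lab3 z = 2 ∧ Γ.Adj c' (φ.symm z) := by
    intro z
    simp [S2]
  have hS2 : ∀ w, φ w ∈ S2 ↔ (w ≠ a ∧ ¬Γ.Adj a w) ∧ Γ.Adj c' w := by
    intro w
    rw [hmemS2, Equiv.symm_apply_apply]
    constructor
    · rintro ⟨h1, h2⟩
      have h3 := far_of_lab3 C hφ hb1 h1
      rw [Equiv.symm_apply_apply] at h3
      exact ⟨h3, h2⟩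
    · rintro ⟨⟨h1, h2⟩, h3⟩
      exact ⟨lab3_far C hφ hb1 h1 h2, h3⟩
  have hz2 : φ c' = z2 := sgS_inj E (by rw [← hφ, hc3])
  -- the count
  have hcS2 : S2.card = 320 := by
    have hN : Γ.neighborFinset c' = (sg Γ κ b c').image (τ κ b) ∪ S2.image φ.symm := by
      ext w
      simp only [SimpleGraph.mem_neighborFinset, Finset.mem_union, Finset.mem_image]
      constructor
      · intro hw
        by_cases hwa : Γ.Adj a w
        · obtain ⟨p, rfl⟩ := exists_τ C hwa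
          exact Or.inl ⟨p, mem_sg.2 hw.symm, rfl⟩
        · refine Or.inr ⟨φ w, (hS2 w).2 ⟨⟨?_, hwa⟩, hw⟩, by simp⟩
          rintro rfl
          exact hc2 hw.symm
      · rintro (⟨p, hp, rfl⟩ | ⟨z, hz, rfl⟩)
        · exact (mem_sg.1 hp).symm
        · exact ((hmemS2 z).1 hz).2
    have hdisj : Disjoint ((sg Γ κ b c').image (τ κ b)) (S2.image φ.symm) := by
      rw [Finset.disjoint_left]
      intro w hw1 hw2
      simp only [Finset.mem_image] at hw1 hw2
      obtain ⟨p, -, rfl⟩ := hw1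
      obtain ⟨z, hz, hzw⟩ := hw2
      have h1 := ((hmemS2 z).1 hz).1
      have h2 : z = fF p := by
        rw [← phi_tau C hφ hb1, ← hzw]
        simp
      rw [h2, lab3_fF] at h1
      exact absurd h1 (by norm_num)
    have h416 := C.hsrg.regular c'
    rw [SimpleGraph.degree, hN, Finset.card_union_of_disjoint hdisj,
      Finset.card_image_of_injective _ (τ_inj C), Finset.card_image_of_injective _ φ.symm.injective,
      card_sg_far C hc1 hc2, hm] at h416
    omega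
  -- the classes
  have hcov : ∀ p : Fin 1782, labV p < 6 → bit (treeMem treeV (maskL rootsV)) p = true := by
    intro p hp
    have h1 := treeV_cov
    rw [force_eq] at h1
    have h2 := allN_spec h1 p p.2
    rw [orC_eq_true] at h2
    rcases h2 with h2 | h2
    · have := Nat.le_of_ble_eq_true h2
      omega
    · exact h2
  obtain ⟨J, hJsub, hiff, hJex⟩ := inv_union (n := 1782) (t := treeV) (rts := rootsV) (lab := labV) 6 S2 treeV_par
    (fun r hr => by
      obtain ⟨h1, h2⟩ := (ifB_eq_true _ _).1 ((allL_eq_true _ _).1 treeV_root r hr)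
      exact ⟨Nat.le_of_ble_eq_true h1, Nat.eq_of_beq_eq_true h2⟩)
    (by
      rintro ⟨y', k, x⟩ he hx
      simp only at hx ⊢
      obtain ⟨h1, h2⟩ := (ifB_eq_true _ _).1 ((allL_eq_true _ _).1 treeV_ent _ he)
      obtain ⟨h3, h4⟩ := (ifB_eq_true _ _).1 h2
      have hk : k < 4 := Nat.le_of_ble_eq_true h1
      have hyx : y' = app 11 2047 (nthN uS k) x := Nat.eq_of_beq_eq_true h3
      have hl : labV y' = labV x := Nat.eq_of_beq_eq_true h4
      obtain ⟨g, hg, u, hu, hgU, -, hv⟩ := exists_U_mem E hk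
      have hval : (u ⟨x, hx⟩ : ℕ) = y' := by rw [hv, hyx]
      refine ⟨by rw [← hval]; exact (u ⟨x, hx⟩).2, hl, fun h1' h2' => ?_⟩
      have he' : (⟨y', h1'⟩ : Fin 1782) = u ⟨x, hx⟩ := Fin.ext hval.symm
      rw [he']
      obtain ⟨w, hw⟩ := φ.surjective (⟨x, hx⟩ : Fin 1782)
      rw [← hw, ← phi_smul C hφ (g := ⟨g, hg⟩) hu, hS2, hS2, far_smul C]
      have h5 := C.hadj ⟨g, hg⟩ c' w
      rw [hfix _ hgU] at h5
      rw [h5])
    hcov (fun p hp => (labV_lt_iff p).2 ((hmemS2 p).1 hp).1)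
  have hcard := card_of_iff szV hJsub hiff
  rw [hcS2] at hcard
  have h0J : 0 ∉ J := by
    intro h0
    obtain ⟨q, hq, hq0⟩ := hJex 0 h0
    have h1 := labV_zero' hq0
    rw [h1, ← hz2, hS2] at hq
    exact Γ.irrefl hq.2
  have hJ : J = {3, 4} := numV J (Finset.mem_powerset.2 hJsub) h0J hcard.symm
  have hl3 := lab3_far C hφ hb1 hy1 hy2
  have hadj := allN_spec adjV (φ y) (φ y).2
  rw [orC_eq_true] at hadj
  have hadj2 : adjS 2 (φ y) = orC (Nat.beq (labV (φ y)) 3) (Nat.beq (labV (φ y)) 4) := by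
    rcases hadj with h | h
    · exact absurd hl3 (neB_ne h)
    · exact bEq_iff h
  have h1 : Γ.Adj c' y ↔ φ y ∈ S2 := by
    rw [hS2]
    exact ⟨fun h => ⟨⟨hy1, hy2⟩, h⟩, fun h => h.2⟩
  rw [h1, hiff, hJ, adjT_z2]
  show _ ↔ adjS 2 (φ y) = true
  rw [hadj2, orC_eq_true]
  simp only [Finset.mem_insert, Finset.mem_singleton]
  constructor
  · rintro (h | h)
    · left
      rw [h]
      rfl
    · right
      rw [h]
      rfl
  · rintro (h | h)
    · exact Or.inl (Nat.eq_of_beq_eq_true h)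
    · exact Or.inr (Nat.eq_of_beq_eq_true h)

end Phi

/-- **The graph is the explicit graph.** -/
theorem main : ∃ φ : Ω ≃ Fin 1782, ∀ x y, Γ.Adj x y ↔ AdjT E (φ x) (φ y) := by
  classical
  obtain ⟨-, hm, hb1⟩ := stage1 C
  obtain ⟨c', hc1, hc2, hfix, hc3⟩ := stage2 C hm
  obtain ⟨φ, hφ⟩ := exists_phi C hc1 hc2 hb1 hc3
  refine ⟨φ, ?_⟩
  have hz2 : φ c' = z2 := sgS_inj E (by rw [← hφ, hc3])
  have hτx : ∀ p y, Γ.Adj (τ κ b p) y ↔ AdjT E (φ (τ κ b p)) (φ y) := by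
    intro p y
    rw [phi_tau C hφ hb1, ← mem_sg, hφ, mem_sgS]
  intro x y
  by_cases hxN : Γ.Adj a x
  · obtain ⟨p, rfl⟩ := exists_τ C hxN
    exact hτx p y
  by_cases hyN : Γ.Adj a y
  · obtain ⟨p, rfl⟩ := exists_τ C hyN
    rw [Γ.adj_comm, hτx, adjT_symm E]
  by_cases hxa : x = a
  · rw [hxa, phi_a C hφ]
    exact ⟨fun h => absurd h hyN, fun h => absurd h (far_zero C hφ hb1 hyN)⟩
  by_cases hya : y = a
  · rw [hya, phi_a C hφ]
    constructor
    · intro h
      exact absurd h.symm hxN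
    · intro h
      rw [adjT_symm] at h
      exact absurd h (far_zero C hφ hb1 hxN)
  obtain ⟨g, rfl⟩ := far_trans C hc1 hc2 hxa hxN
  obtain ⟨u, hu⟩ := exists_lift E g.2
  have hyi : κ g (κ g⁻¹ y) = y := by
    rw [map_inv]
    simp
  have hfar := (far_smul C g⁻¹ (x := y)).2 ⟨hya, hyN⟩
  have hk := key_cp C hφ hb1 hc1 hc2 hc3 hfix hm hfar.1 hfar.2
  have h1 := C.hadj g c' (κ g⁻¹ y)
  rw [hyi] at h1
  rw [h1, hk, phi_smul C hφ hu, hz2]
  have h2 : φ y = u (φ (κ g⁻¹ y)) := by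
    rw [← phi_smul C hφ hu, hyi]
  rw [h2]
  exact (adjT_smul E hu.1 z2 (φ (κ g⁻¹ y))).symm

end Ctx

/-- The group of automorphisms of the graph contains the group with index at most `2`. -/
theorem eq_H (E : Env) (hs : IsSimpleGroup E.H)
    {X : Subgroup SS} (hX : X ≤ AS E) (hXc : Nat.card X = 448345497600) : X = E.H := by
  have hc := E.hc
  have hHle := H_le E
  have hA := card_AS_le E
  have hd := Subgroup.card_dvd_of_le hHle
  rw [hc] at hd
  obtain ⟨k, hk⟩ := hd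
  have hk12 : k = 1 ∨ k = 2 := by
    have hpos : 0 < Nat.card (AS E) := Nat.card_pos
    have h1 : k ≠ 0 := by
      rintro rfl
      omega
    have h2 : k ≤ 2 := by
      by_contra h3
      have h4 : 3 ≤ k := by omega
      have : 448345497600 * 3 ≤ 448345497600 * k := Nat.mul_le_mul_left _ h4
      omega
    omega
  rcases hk12 with rfl | rfl
  · have h1 : E.H = AS E := Subgroup.eq_of_le_of_card_ge hHle (by rw [hc, hk])
    have h2 : X = AS E := Subgroup.eq_of_le_of_card_ge hX (by rw [hXc, hk])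
    rw [h1, h2]
  · have c1 : Nat.card (X.subgroupOf (AS E)) = 448345497600 := by
      rw [← hXc]
      exact Nat.card_congr (Subgroup.subgroupOfEquivOfLe hX).toEquiv
    have c2 : Nat.card (E.H.subgroupOf (AS E)) = 448345497600 := by
      rw [← hc]
      exact Nat.card_congr (Subgroup.subgroupOfEquivOfLe hHle).toEquiv
    have hs' : IsSimpleGroup (E.H.subgroupOf (AS E)) :=
      (Subgroup.subgroupOfEquivOfLe hHle).isSimpleGroup
    have h := Model.eq_of_index_two (X := X.subgroupOf (AS E)) (Y := E.H.subgroupOf (AS E))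
      (by rw [c1, hk]) (by rw [c1, c2]) hs' (by rw [c2]; norm_num)
    have h2 := Subgroup.subgroupOf_inj.1 h
    rwa [inf_eq_left.2 hX, inf_eq_left.2 hHle] at h2

end Cfsg.Agent.Lib.SuzRec.Core
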